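import Mathlib
import Cfsg.Agent.Lib.Helper67.LSF.Defs

/-!
# Project LSF (S5286), package [STAB]

The elements of the group `GG F` with trivial free part are those of `lam S`.
-/

set_option autoImplicit false

namespace Cfsg.Agent.Lib.Helper63.LSF

open Cfsg Cfsg.Agent.Lib.Helper67.LSF

universe u

/-- a reduced word representing `1` is empty -/
theorem lsf_nil_of_reduced_mk_one {X : Type u} [DecidableEq X] (L : List (X × Bool))
    (hred : FreeGroup.IsReduced L) (h : FreeGroup.mk L = (1 : FreeGroup X)) : L = [] := by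
  have h4 : FreeGroup.toWord (FreeGroup.mk L) = L := by
    rw [FreeGroup.toWord_mk]
    exact hred.reduce_eq
  rw [h, FreeGroup.toWord_one] at h4
  exact h4.symm

/-- [STAB] -/
theorem pkgStab (hPath : PkgPath.{u}) (hRed : PkgRed.{u}) (hInv : PkgInv.{u}) : PkgStab.{u} := by
  classical
  intro Ω _ S F g hg hleft
  obtain ⟨L, q, hp, rfl⟩ := hPath S F g hg
  obtain ⟨L', hp', hred, hmk⟩ := hRed S F L q hp
  rw [← hmk] at hleft ⊢
  have h1 : (SemidirectProduct.inr q * SemidirectProduct.inl (FreeGroup.mk L') : Ghat F).left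
      = autF F q (FreeGroup.mk L') := by
    rw [SemidirectProduct.mul_left]
    simp
  rw [h1] at hleft
  have h2 : FreeGroup.mk L' = (1 : FreeGroup (X F)) := by
    have h := congrArg (fun w => (autF F q)⁻¹ w) hleft
    simpa using h
  have h3 : L' = [] := lsf_nil_of_reduced_mk_one L' hred h2
  subst h3
  obtain ⟨s, hs⟩ := (hInv S F).1 q hp'
  refine ⟨s, ?_⟩
  rw [hs]
  have h5 : (FreeGroup.mk ([] : List (X F × Bool))) = (1 : FreeGroup (X F)) := rfl
  rw [h5, map_one, mul_one]
  rfl

end Cfsg.Agent.Lib.Helper63.LSF
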